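import Cfsg.Agent.Lib.Helper99.AutPSU.TDefs

set_option autoImplicit false
set_option linter.unusedSectionVars false
set_option linter.unusedVariables false

/-!
PSU-AUT ladder, rung FINA: a semilinear similitude of the hermitian form induces `cG M * fl σ`.
-/

namespace Cfsg.Agent.Lib.Helper24.AutPSUT

open Matrix MatrixGroups Cfsg.Agent.Lib.Helper17 Cfsg.Agent.Lib.Helper99.AutPSU

variable {F : Type*} [Field F] [Fintype F] {n q : ℕ}

theorem herm_smul_smul (a b : F) (u v : Fin n → F) :
    Cfsg.hermForm n F q (a • u) (b • v) = a * b ^ q * Cfsg.hermForm n F q u v := by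
  simp only [Cfsg.hermForm, Pi.smul_apply, smul_eq_mul, Finset.mul_sum, mul_pow]
  apply Finset.sum_congr rfl
  intro i _
  ring

theorem exists_gu_of_semilinear (hF : Fintype.card F = q ^ 2) (σ : F ≃+* F) (c : F) (hc : c ≠ 0)
    (hcq : c ^ q = c) (Γ : (Fin n → F) → (Fin n → F))
    (hadd : ∀ u v, Γ (u + v) = Γ u + Γ v) (hsmul : ∀ (x : F) v, Γ (x • v) = σ x • Γ v)
    (hH : ∀ u v, Cfsg.hermForm n F q (Γ u) (Γ v) = c * σ (Cfsg.hermForm n F q u v)) :
    ∃ M : ↥(Cfsg.GU n F q), ∀ x y : ↥(Cfsg.SU n F q),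
      (∀ v, mt y *ᵥ Γ v = Γ (mt x *ᵥ v)) →
        (cG M * fl σ : MulAut (Cfsg.PSU n F q)) (pm x) = pm y := by
  obtain ⟨ν, hν⟩ := exists_norm_eq hF c⁻¹ (inv_ne_zero hc) (by rw [inv_pow, hcq])
  let L : (Fin n → F) →ₗ[F] (Fin n → F) :=
    { toFun := fun v => ν • Γ (fun i => σ.symm (v i))
      map_add' := by
        intro u v
        have : (fun i => σ.symm ((u + v) i)) =
            (fun i => σ.symm (u i)) + (fun i => σ.symm (v i)) := by
          ext i; simp
        rw [this, hadd, smul_add]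
      map_smul' := by
        intro a v
        have : (fun i => σ.symm ((a • v) i)) = σ.symm a • (fun i => σ.symm (v i)) := by
          ext i; simp
        rw [this, hsmul, RingEquiv.apply_symm_apply, RingHom.id_apply, smul_comm] }
  have hLdef : ∀ v, L v = ν • Γ (fun i => σ.symm (v i)) := fun v => rfl
  have hL : ∀ u v, Cfsg.hermForm n F q (L u) (L v) = Cfsg.hermForm n F q u v := by
    intro u v
    rw [hLdef, hLdef, herm_smul_smul, hH, ← herm_map]
    have hu : (fun i => σ (σ.symm (u i))) = u := by ext i; simp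
    have hv : (fun i => σ (σ.symm (v i))) = v := by ext i; simp
    rw [hu, hv, ← mul_assoc]
    have : ν * ν ^ q * c = 1 := by
      rw [← pow_succ', hν, inv_mul_cancel₀ hc]
    rw [this, one_mul]
  refine ⟨guOfLinear hF L hL, ?_⟩
  intro x y hxy
  rw [MulAut.mul_apply, fl_pm, cG_pm]
  congr 1
  apply conjS_eq_of_mul
  rw [fldS_val]
  apply Matrix.ext_of_mulVec_single
  intro j
  rw [← mulVec_mulVec, ← mulVec_mulVec, guOfLinear_mulVec, guOfLinear_mulVec, hLdef, hLdef,
    mulVec_smul, hxy]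
  congr 2
  set v : Fin n → F := Pi.single j 1 with hv
  have hv' : v = fun i => σ (σ.symm (v i)) := by ext i; simp
  conv_rhs => rw [hv', map_mulVec]
  ext i
  simp

end Cfsg.Agent.Lib.Helper24.AutPSUT
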