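import Cfsg.Agent.Lib.Helper67.CopCls
import Cfsg.Agent.S0055

set_option autoImplicit false

/-! COPCLS ladder, rung L4. -/

namespace Cfsg.Agent.Lib.Helper24.CopCls

open Cfsg.Agent.Lib.Helper73 Cfsg.Agent.Lib.Helper67.CopCls
open Subgroup
open scoped Pointwise commutatorElement

variable {G : Type*} [Group G] [Finite G] {m n : ℕ}

theorem L4 (c : Ctx G m n) (a : G) (ho : (orderOf a).Coprime m) (hac : a ∉ Subgroup.center G) :
    cs a ∣ m := by
  classical
  obtain ⟨x', hx'⟩ := c.exN
  obtain ⟨x, -, hxβ, hCx⟩ := c.exists_beta_rep x' hx'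
  have hx : cs x = n := by
    show (centralizer ({x} : Set G)).index = n
    rw [hCx]; exact hx'
  have hxm : (cs x).Coprime m := by rw [hx]; exact c.hcop.symm
  set K := NN G (Sm m) with hK
  have hKn : K.Normal := inferInstance
  set L := K ⊔ zpowers x with hL
  have hLx : L ≤ centralizer ({x} : Set G) :=
    sup_le (c.K_le_cn x hxm) (zpowers_le.mpr (mem_cn.mpr rfl))
  have hLK : ∀ u ∈ L, ∀ k ∈ K, u * k = k * u := by
    intro u hu k hk
    have h1 : L ≤ centralizer ({k} : Set G) := by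
      apply sup_le
      · intro k' hk'
        exact mem_cn.mpr (c.K_comm k' k hk' hk)
      · apply zpowers_le.mpr
        exact mem_cn.mpr (mem_cn.mp (c.K_le_cn x hxm hk)).symm
    exact mem_cn.mp (h1 hu)
  have hLcomm : ∀ u ∈ L, ∀ v ∈ L, u * v = v * u := by
    intro u hu v hv
    have h1 : L ≤ centralizer ({u} : Set G) := by
      apply sup_le
      · intro k hk
        exact mem_cn.mpr (hLK u hu k hk).symm
      · apply zpowers_le.mpr
        exact mem_cn.mpr (mem_cn.mp (hLx hu)).symm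
    exact (mem_cn.mp (h1 hv)).symm
  have hLc : IsMulCommutative L := ⟨⟨fun u v => Subtype.ext (hLcomm u u.2 v v.2)⟩⟩
  have hLn : L.Normal := by
    constructor
    intro u hu g
    have h1 : L ≤ L.comap (MulAut.conj g).toMonoidHom := by
      apply sup_le
      · intro k hk
        exact mem_sup_left (hKn.conj_mem k hk g)
      · apply zpowers_le.mpr
        show g * x * g⁻¹ ∈ L
        have h2 := Ctx.mem_K (m := m) x hxm g
        have : g * x * g⁻¹ = x * ((g * x * g⁻¹)⁻¹ * x)⁻¹ := by group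
        rw [this]
        exact L.mul_mem (mem_sup_right (mem_zpowers x)) (L.inv_mem (mem_sup_left h2))
    exact h1 hu
  have hLpow : ∀ u ∈ L, u ^ (m * orderOf x) = 1 := by
    intro u hu
    have h1 : u ∈ ((K ⊔ zpowers x : Subgroup G) : Set G) := hu
    rw [normal_mul] at h1
    obtain ⟨k, hk, z, hz, rfl⟩ := h1
    have hcomm : Commute k z :=
      (hLK z (mem_sup_right hz) k hk).symm
    rw [hcomm.mul_pow]
    have e1 : k ^ (m * orderOf x) = 1 := by
      rw [pow_mul]
      obtain ⟨d, hd⟩ := c.orderOf_K_dvd k hk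
      rw [hd, pow_mul, pow_orderOf_eq_one]; simp
    have e2 : z ^ (m * orderOf x) = 1 := by
      obtain ⟨i, rfl⟩ := hz
      show (x ^ i) ^ (m * orderOf x) = 1
      rw [← zpow_natCast, ← zpow_mul, mul_comm, zpow_mul, zpow_natCast, mul_comm, pow_mul,
        pow_orderOf_eq_one]
      simp
    rw [e1, e2, one_mul]
  set A := zpowers a with hA
  have hcop : (Nat.card A).Coprime (Nat.card L) := by
    apply Nat.coprime_of_dvd
    intro p hp hpA hpL
    have : Fact p.Prime := ⟨hp⟩
    obtain ⟨u, hu⟩ := exists_prime_orderOf_dvd_card' (G := L) p hpL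
    have h1 : (u : G) ^ (m * orderOf x) = 1 := hLpow u u.2
    have h2 : p ∣ m * orderOf x := by
      rw [← hu, ← Subgroup.orderOf_coe]
      exact orderOf_dvd_of_pow_eq_one h1
    have h3 : p ∣ m := by
      rcases hp.dvd_mul.mp h2 with h | h
      · exact h
      · exact piNum_Smc_iff.mp hxβ p hp h
    rw [hA, Nat.card_zpowers] at hpA
    exact hp.one_lt.ne' (Nat.eq_one_of_dvd_coprimes ho hpA h3)
  have hAL : A ≤ normalizer (L : Set G) := by
    rw [normalizer_eq_top_iff.mpr hLn]; exact le_top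
  obtain ⟨hdisj, hsup⟩ := Cfsg.Agent.S0055.main A L hAL hcop
  set H1 := L ⊓ centralizer (A : Set G) with hH1
  set J := ⁅L, A⁆ with hJ
  have hJL : J ≤ L := commutator_le_left L A
  have hH1J : H1 ≤ normalizer (J : Set G) := by
    rw [le_normalizer_iff]
    intro u hu v hv
    have : u * v * u⁻¹ = v := by
      rw [hLcomm u hu.1 v (hJL hv)]; group
    rw [this]; exact hv
  have hxL : x ∈ L := mem_sup_right (mem_zpowers x)
  have hxd : x ∈ ((H1 ⊔ J : Subgroup G) : Set G) := by rw [hsup]; exact hxL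
  rw [coe_mul_of_left_le_normalizer_right H1 J hH1J] at hxd
  obtain ⟨x0, hx0, j, hj, hxe⟩ := hxd
  have hxe' : x0 * j = x := hxe
  have hx0a : a * x0 = x0 * a := (mem_centralizer_iff.mp hx0.2) a (mem_zpowers a)
  have hj1 : j ≠ 1 := by
    rintro rfl
    rw [mul_one] at hxe'
    rw [hxe'] at hx0a
    exact hac (c.L3 x a hx ho hx0a)
  have hord : (orderOf a).Coprime (orderOf x0) := by
    have h1 : orderOf x0 ∣ Nat.card L := by
      have := orderOf_dvd_natCard (⟨x0, hx0.1⟩ : L)
      rwa [Subgroup.orderOf_mk] at this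
    have h2 : Nat.card A = orderOf a := Nat.card_zpowers a
    rw [← h2]
    exact Nat.Coprime.coprime_dvd_right h1 hcop
  obtain ⟨k1, k2⟩ := cn_mul_le_of_coprime a x0 hx0a hord
  have hdvd : cs a ∣ cs (a * x0) := index_dvd_of_le k1
  by_cases hw : cs (a * x0) = m
  · rw [← hw]; exact hdvd
  exfalso
  have hwn : cs (a * x0) ≤ n := c.hsecond _ (lt_of_le_of_ne (c.htop _) hw)
  set W := centralizer ({a * x0} : Set G) with hW
  set E := W ⊓ centralizer ({x} : Set G) with hE
  -- `W` normalises `J`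
  have hWJ : ∀ h ∈ W, ∀ v ∈ J, h * v * h⁻¹ ∈ J := by
    intro h hh v hv
    have h1 : J ≤ J.comap (MulAut.conj h).toMonoidHom := by
      rw [hJ, commutator_le]
      intro l hl b hb
      show (MulAut.conj h) ⁅l, b⁆ ∈ ⁅L, A⁆
      rw [map_commutatorElement]
      have hb' : (MulAut.conj h) b = b := by
        have h2 : A ≤ centralizer ({h} : Set G) := by
          apply zpowers_le.mpr
          exact mem_cn.mpr (mem_cn.mp (k1 hh)).symm
        have h3 := mem_cn.mp (h2 hb)
        rw [MulAut.conj_apply, ← h3]; group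
      rw [hb']
      exact commutator_mem_commutator (hLn.conj_mem l hl h) hb
    exact h1 hv
  -- (i)
  have hi : (E.subgroupOf W).index ≤ Nat.card J - 1 := by
    let φ : W → {u : J // u ≠ 1} := fun h =>
      ⟨⟨(h : G) * j * (h : G)⁻¹, hWJ h h.2 j hj⟩, fun e => hj1 (by
        have e' : (h : G) * j * (h : G)⁻¹ = 1 := congrArg Subtype.val e
        have : j = (h : G)⁻¹ * ((h : G) * j * (h : G)⁻¹) * (h : G) := by group
        rw [this, e']; group)⟩
    have h1 := index_le_card_range' (E.subgroupOf W) φ (by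
      intro g₁ g₂ hg
      have hg' : (g₁ : G) * j * (g₁ : G)⁻¹ = (g₂ : G) * j * (g₂ : G)⁻¹ :=
        congrArg (fun u => ((u : {u : J // u ≠ 1}).1 : G)) hg
      rw [mem_subgroupOf]
      refine ⟨(g₁⁻¹ * g₂).2, ?_⟩
      show ((g₁⁻¹ * g₂ : W) : G) ∈ centralizer ({x} : Set G)
      rw [mem_cn, ← hxe']
      have e1 : ((g₁⁻¹ * g₂ : W) : G) * x0 = x0 * ((g₁⁻¹ * g₂ : W) : G) :=
        mem_cn.mp (k2 (g₁⁻¹ * g₂).2)
      have e2 : ((g₁⁻¹ * g₂ : W) : G) * j = j * ((g₁⁻¹ * g₂ : W) : G) := by
        push_cast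
        calc (g₁ : G)⁻¹ * g₂ * j = (g₁ : G)⁻¹ * ((g₂ : G) * j * (g₂ : G)⁻¹) * g₂ := by group
          _ = (g₁ : G)⁻¹ * ((g₁ : G) * j * (g₁ : G)⁻¹) * g₂ := by rw [hg']
          _ = j * ((g₁ : G)⁻¹ * g₂) := by group
      rw [← mul_assoc, e1, mul_assoc, e2, mul_assoc])
    have h2 : Nat.card (Set.range φ) ≤ Nat.card {u : J // u ≠ 1} :=
      Nat.card_le_card_of_injective _ Subtype.val_injective
    have h3 : Nat.card {u : J // u ≠ 1} = Nat.card J - 1 := by
      have := Fintype.ofFinite J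
      rw [Nat.card_eq_fintype_card, Nat.card_eq_fintype_card, Fintype.card_subtype_compl,
        Fintype.card_subtype_eq]
    omega
  -- (ii)
  have hii : Nat.card J * Nat.card E ≤ Nat.card (centralizer ({x} : Set G)) := by
    rw [← Nat.card_prod]
    apply Nat.card_le_card_of_injective (fun ue : J × E =>
      (⟨(ue.1 : G) * (ue.2 : G), mul_mem (hLx (hJL ue.1.2)) ue.2.2.2⟩ : centralizer ({x} : Set G)))
    rintro ⟨u, e⟩ ⟨u', e'⟩ h
    have h' : (u : G) * (e : G) = (u' : G) * (e' : G) := congrArg Subtype.val h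
    have h1 : (u' : G)⁻¹ * (u : G) = (e' : G) * (e : G)⁻¹ := by
      calc (u' : G)⁻¹ * (u : G) = (u' : G)⁻¹ * ((u : G) * (e : G)) * (e : G)⁻¹ := by group
        _ = (u' : G)⁻¹ * ((u' : G) * (e' : G)) * (e : G)⁻¹ := by rw [h']
        _ = _ := by group
    have h2 : (u' : G)⁻¹ * (u : G) ∈ J := J.mul_mem (J.inv_mem u'.2) u.2
    have h3 : (u' : G)⁻¹ * (u : G) ∈ H1 := by
      refine ⟨hJL h2, ?_⟩
      rw [h1]
      have h4 : (e' : G) * (e : G)⁻¹ ∈ centralizer ({a} : Set G) :=
        k1 (W.mul_mem e'.2.1 (W.inv_mem e.2.1))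
      show (e' : G) * (e : G)⁻¹ ∈ centralizer (A : Set G)
      rw [mem_centralizer_iff]
      intro b hb
      have h8 : A ≤ centralizer ({(e' : G) * (e : G)⁻¹} : Set G) := by
        apply zpowers_le.mpr
        exact mem_cn.mpr (mem_cn.mp h4).symm
      exact mem_cn.mp (h8 hb)
    have h5 : (u' : G)⁻¹ * (u : G) ∈ H1 ⊓ J := ⟨h3, h2⟩
    rw [hdisj, mem_bot] at h5
    have h6 : (u : G) = u' := (inv_mul_eq_one.mp h5).symm
    have h7 : (e : G) = e' := by
      rw [h6] at h'
      exact mul_left_cancel h'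
    exact Prod.ext (Subtype.ext h6) (Subtype.ext h7)
  have hcE : Nat.card (E.subgroupOf W) = Nat.card E :=
    Nat.card_congr (subgroupOfEquivOfLe (inf_le_left : E ≤ W)).toEquiv
  have h1 := (E.subgroupOf W).card_mul_index
  rw [hcE] at h1
  have h2 : Nat.card W * cs (a * x0) = Nat.card G := W.card_mul_index
  have h3 : Nat.card (centralizer ({x} : Set G)) * n = Nat.card G := by
    rw [← hx]; exact (centralizer ({x} : Set G)).card_mul_index
  have hEpos : 0 < Nat.card E := Nat.card_pos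
  have hJpos : 0 < Nat.card J := Nat.card_pos
  have h4 : Nat.card W < Nat.card (centralizer ({x} : Set G)) := by
    calc Nat.card W = Nat.card E * (E.subgroupOf W).index := h1.symm
      _ ≤ Nat.card E * (Nat.card J - 1) := Nat.mul_le_mul_left _ hi
      _ < Nat.card E * Nat.card J := by
          apply Nat.mul_lt_mul_of_pos_left _ hEpos
          omega
      _ = Nat.card J * Nat.card E := mul_comm _ _
      _ ≤ _ := hii
  have h5 : Nat.card W * cs (a * x0) < Nat.card (centralizer ({x} : Set G)) * n := by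
    calc Nat.card W * cs (a * x0) ≤ Nat.card W * n := Nat.mul_le_mul_left _ hwn
      _ < Nat.card (centralizer ({x} : Set G)) * n :=
          Nat.mul_lt_mul_of_pos_right h4 (by have := c.hn; omega)
  omega

end Cfsg.Agent.Lib.Helper24.CopCls
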