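import Cfsg.Agent.Lib.Helper67.CopCls

set_option autoImplicit false

/-! COPCLS ladder, rung L5. -/

namespace Cfsg.Agent.Lib.Helper24.CopCls

open Cfsg.Agent.Lib.Helper73 Cfsg.Agent.Lib.Helper67.CopCls

variable {G : Type*} [Group G] [Finite G] {m n : ℕ}

theorem L5 (c : Ctx G m n) (a : G) (ho : (orderOf a).Coprime m) (hac : a ∉ Subgroup.center G)
    (h4 : cs a ∣ m) : cs a = m := by
  obtain ⟨x, hx⟩ := c.exN
  have hcopan : (cs a).Coprime n := Nat.Coprime.coprime_dvd_left h4 c.hcop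
  by_cases hex : ∃ x', IsConj x x' ∧ cs (a * x') = m
  · obtain ⟨x', hx', hm⟩ := hex
    have hcs : cs x' = n := (cs_eq_of_isConj hx').trans hx
    have h1 := cs_mul_dvd a x' (by
      rw [show (Subgroup.centralizer ({x'} : Set G)).index = n from hcs]; exact hcopan)
    rw [show (Subgroup.centralizer ({a * x'} : Set G)).index = m from hm,
      show (Subgroup.centralizer ({x'} : Set G)).index = n from hcs] at h1
    exact Nat.dvd_antisymm h4 (c.hcop.dvd_of_dvd_mul_right h1)
  · exfalso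
    push Not at hex
    have hmul : ∀ x', IsConj x x' → cs (a * x') = cs x' := by
      intro x' hx'
      have hcs : cs x' = n := (cs_eq_of_isConj hx').trans hx
      have h1 := cs_le_cs_mul a x' (by
        rw [show (Subgroup.centralizer ({x'} : Set G)).index = n from hcs]; exact hcopan)
      have h2 : cs (a * x') ≤ n :=
        c.hsecond _ (lt_of_le_of_ne (c.htop _) (hex x' hx'))
      rw [hcs]
      rw [show (Subgroup.centralizer ({x'} : Set G)).index = n from hcs] at h1
      exact le_antisymm h2 h1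
    have hT : ∀ g : G, (g * a * g⁻¹)⁻¹ * a ∈ transStab x :=
      translate_mem a x (by rw [hx]; exact hcopan) hmul
    have hKn : (NN G (Sm m)).Normal := inferInstance
    have hcent : ∀ k ∈ NN G (Sm m), k * a = a * k := by
      intro k hk
      have h1 := hT k
      have h2 : (k * a * k⁻¹)⁻¹ * a ∈ NN G (Sm m) := by
        have : (k * a * k⁻¹)⁻¹ * a = k * (a⁻¹ * k⁻¹ * a⁻¹⁻¹) := by group
        rw [this]
        exact (NN G (Sm m)).mul_mem hk (hKn.conj_mem _ ((NN G (Sm m)).inv_mem hk) _)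
      have d1 := c.orderOf_K_dvd _ h2
      have d2 := orderOf_dvd_of_mem_transStab x _ h1
      rw [hx] at d2
      have h3 : orderOf ((k * a * k⁻¹)⁻¹ * a) = 1 := Nat.eq_one_of_dvd_coprimes c.hcop d1 d2
      have h4 : (k * a * k⁻¹)⁻¹ * a = 1 := orderOf_eq_one_iff.mp h3
      have h5 : k * a * k⁻¹ = a := inv_mul_eq_one.mp h4
      calc k * a = k * a * k⁻¹ * k := by group
        _ = a * k := by rw [h5]
    have hxm : (cs x).Coprime m := by rw [hx]; exact c.hcop.symm
    have ht : (x⁻¹ * a * x⁻¹⁻¹)⁻¹ * a ∈ NN G (Sm m) := by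
      have h1 := Ctx.mem_K (m := m) x hxm a⁻¹
      have : (x⁻¹ * a * x⁻¹⁻¹)⁻¹ * a = ((a⁻¹ * x * a⁻¹⁻¹)⁻¹ * x)⁻¹ := by group
      rw [this]
      exact (NN G (Sm m)).inv_mem h1
    have h1 := eq_one_of_conj_translate a x⁻¹ _ rfl (hcent _ ht)
      (Nat.Coprime.coprime_dvd_left (c.orderOf_K_dvd _ ht) ho.symm)
    have h2 : x⁻¹ * a * x⁻¹⁻¹ = a := inv_mul_eq_one.mp h1
    have h3 : a * x = x * a := by
      calc a * x = x * (x⁻¹ * a * x⁻¹⁻¹) := by group
        _ = x * a := by rw [h2]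
    exact hac (c.L3 x a hx ho h3)

end Cfsg.Agent.Lib.Helper24.CopCls
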