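import Cfsg.Agent.Lib.Helper67.CopCls

set_option autoImplicit false

/-! COPCLS ladder, rung L6. -/

namespace Cfsg.Agent.Lib.Helper24.CopCls

open Cfsg.Agent.Lib.Helper73 Cfsg.Agent.Lib.Helper67.CopCls
open Subgroup

variable {G : Type*} [Group G] [Finite G] {m n : ℕ}

theorem eq_of_le_of_index_eq {H K : Subgroup G} (h : H ≤ K) (hi : H.index = K.index) : H = K := by
  have h1 := relIndex_mul_index h
  rw [hi] at h1
  have hpos : 0 < K.index := Nat.pos_of_ne_zero index_ne_zero_of_finite
  have h2 : H.relIndex K = 1 := by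
    have : H.relIndex K * K.index = 1 * K.index := by rw [h1, one_mul]
    exact Nat.eq_of_mul_eq_mul_right hpos this
  exact le_antisymm h (relIndex_eq_one.mp h2)

theorem L6pp (c : Ctx G m n) (a u : G) (ho : (orderOf a).Coprime m)
    (hac : a ∉ Subgroup.center G) (h5 : cs a = m) (hu : PiNum (Sm m)ᶜ (orderOf u))
    (hcomm : a * u = u * a) (p : ℕ) [Fact p.Prime] (hpm : p ∣ m) (hup : IsPGroup p (zpowers u)) :
    u ∈ Subgroup.center G := by
  have hp : p.Prime := Fact.out
  have hcop_au : (orderOf a).Coprime (orderOf u) := coprime_of_Sm_Smc ho hu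
  obtain ⟨k1, k2⟩ := cn_mul_le_of_coprime a u hcomm hcop_au
  have hau : cs (a * u) = m := by
    apply c.cs_eq_m_of_dvd
    rw [← h5]; exact index_dvd_of_le k1
  have hCeq : centralizer ({a * u} : Set G) = centralizer ({a} : Set G) :=
    eq_of_le_of_index_eq k1 (hau.trans h5.symm)
  rw [hCeq] at k2
  have hcsu : cs u ∣ m := by rw [← h5]; exact index_dvd_of_le k2
  have hcop_un : (cs u).Coprime n := Nat.Coprime.coprime_dvd_left hcsu c.hcop
  obtain ⟨x, hx⟩ := c.exN
  by_cases hall : ∀ x', IsConj x x' → cs (u * x') = cs x'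
  · exact gen_central u x (by rw [hx]; exact hcop_un) hall (by
      rw [hx]; exact coprime_of_Smc c.hcop hu)
  · exfalso
    push Not at hall
    obtain ⟨x', hx', hne⟩ := hall
    have hcs : cs x' = n := (cs_eq_of_isConj hx').trans hx
    have hc' : ((centralizer ({u} : Set G)).index).Coprime (centralizer ({x'} : Set G)).index := by
      rw [show (centralizer ({x'} : Set G)).index = n from hcs]; exact hcop_un
    have h1 := cs_le_cs_mul u x' hc'
    have h2 := cs_mul_dvd u x' hc'
    rw [show (centralizer ({x'} : Set G)).index = n from hcs] at h1 h2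
    rw [hcs] at hne
    have h3 : cs (u * x') = m := by
      by_contra h
      have := c.hsecond _ (lt_of_le_of_ne (c.htop _) h)
      exact hne (le_antisymm this h1)
    rw [show (centralizer ({u * x'} : Set G)).index = m from h3] at h2
    have h4 : cs u = m := Nat.dvd_antisymm hcsu (c.hcop.dvd_of_dvd_mul_right h2)
    have hCu : centralizer ({a} : Set G) = centralizer ({u} : Set G) :=
      eq_of_le_of_index_eq k2 (h5.trans h4.symm)
    obtain ⟨P, hP⟩ := hup.exists_le_sylow
    have hpn : ¬ p ∣ (centralizer ({x} : Set G)).index := by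
      rw [show (centralizer ({x} : Set G)).index = n from hx]
      intro h
      exact hp.one_lt.ne' (Nat.eq_one_of_dvd_coprimes c.hcop hpm h)
    obtain ⟨g, hg⟩ := exists_conj_mem_centralizer_sylow P x hpn
    have h6 : u * (g * x * g⁻¹) = (g * x * g⁻¹) * u :=
      (mem_centralizer_iff.mp hg) u (hP (mem_zpowers u))
    have h7 : g * x * g⁻¹ ∈ centralizer ({a} : Set G) := by
      rw [hCu]; exact mem_cn.mpr h6.symm
    have h8 : cs (g * x * g⁻¹) = n := (cs_conj g x).trans hx
    exact hac (c.L3 _ a h8 ho (mem_cn.mp h7).symm)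

theorem L6 (c : Ctx G m n) (a u : G) (ho : (orderOf a).Coprime m) (hac : a ∉ Subgroup.center G)
    (h5 : cs a = m) (hu : PiNum (Sm m)ᶜ (orderOf u)) (hcomm : a * u = u * a) :
    u ∈ Subgroup.center G := by
  induction hN : orderOf u using Nat.strong_induction_on generalizing u with
  | _ N ih =>
    by_cases hu1 : u = 1
    · rw [hu1]; exact one_mem _
    have hN1 : orderOf u ≠ 1 := fun h => hu1 (orderOf_eq_one_iff.mp h)
    set p := (orderOf u).minFac with hp
    have hpp : p.Prime := Nat.minFac_prime hN1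
    have : Fact p.Prime := ⟨hpp⟩
    have hpd : p ∣ orderOf u := Nat.minFac_dvd _
    have hpm : p ∣ m := piNum_Smc_iff.mp hu p hpp hpd
    obtain ⟨u1, u2, h1, h2, hxx, ho1, ho2⟩ := exists_pi_parts ({p} : Set ℕ) u
    have hd1 : orderOf u1 ∣ orderOf u := orderOf_dvd_of_mem_zpowers h1
    have hd2 : orderOf u2 ∣ orderOf u := orderOf_dvd_of_mem_zpowers h2
    have hau : a ∈ centralizer ({u} : Set G) := mem_cn.mpr hcomm
    have hc1 : a * u1 = u1 * a := mem_cn.mp (cn_le_cn_of_mem_zpowers u u1 h1 hau)
    have hc2 : a * u2 = u2 * a := mem_cn.mp (cn_le_cn_of_mem_zpowers u u2 h2 hau)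
    have hz1 : u1 ∈ Subgroup.center G := by
      apply L6pp c a u1 ho hac h5 (hu.of_dvd hd1) hc1 p hpm
      have h3 : orderOf u1 = p ^ (orderOf u1).primeFactorsList.length :=
        Nat.eq_prime_pow_of_unique_prime_dvd (orderOf_pos u1).ne' (fun {d} hd hdd => ho1 d hd hdd)
      apply IsPGroup.of_card (n := (orderOf u1).primeFactorsList.length)
      rw [Nat.card_zpowers]; exact h3
    have hz2 : u2 ∈ Subgroup.center G := by
      apply ih (orderOf u2) _ u2 (hu.of_dvd hd2) hc2 rfl
      rw [← hN]
      apply lt_of_le_of_ne (Nat.le_of_dvd (orderOf_pos u) hd2)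
      intro h
      have := ho2 p hpp (h ▸ hpd)
      exact this rfl
    rw [hxx]
    exact mul_mem hz1 hz2

end Cfsg.Agent.Lib.Helper24.CopCls
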