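import Cfsg.Agent.Lib.Helper67.CopCls

set_option autoImplicit false

/-! COPCLS ladder, rung L7. -/

namespace Cfsg.Agent.Lib.Helper24.CopCls

open Cfsg.Agent.Lib.Helper73 Cfsg.Agent.Lib.Helper67.CopCls
open Subgroup

variable {G : Type*} [Group G] [Finite G] {m n : ℕ}

theorem trichotomy (c : Ctx G m n)
    (h5 : ∀ a : G, (orderOf a).Coprime m → a ∉ Subgroup.center G → cs a = m)
    (h6 : ∀ a u : G, (orderOf a).Coprime m → a ∉ Subgroup.center G →
      PiNum (Sm m)ᶜ (orderOf u) → a * u = u * a → u ∈ Subgroup.center G) (g : G) :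
    cs g = 1 ∨ cs g = n ∨ cs g = m := by
  obtain ⟨g1, g2, h1, h2, hxx, ho1, ho2⟩ := exists_pi_parts (Sm m) g
  have hC1 : centralizer ({g} : Set G) ≤ centralizer ({g1} : Set G) :=
    cn_le_cn_of_mem_zpowers g g1 h1
  have hC2 : centralizer ({g} : Set G) ≤ centralizer ({g2} : Set G) :=
    cn_le_cn_of_mem_zpowers g g2 h2
  by_cases hz1 : g1 ∈ Subgroup.center G
  · by_cases hz2 : g2 ∈ Subgroup.center G
    · left
      apply cs_eq_one_of_mem_center
      rw [hxx]; exact mul_mem hz1 hz2
    · right; left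
      apply c.cs_eq_n_of_dvd
      refine Dvd.dvd.trans ?_ (index_dvd_of_le hC2)
      set Cu := centralizer ({g2} : Set G) with hCu
      have hZle : Subgroup.center G ≤ Cu := center_le_cn g2
      have hpi : PiNum (Sm m)ᶜ ((Subgroup.center G).subgroupOf Cu).index := by
        apply PiNum.index_of_order
        intro y hy
        rw [compl_compl, piNum_Sm_iff, ← Subgroup.orderOf_coe] at hy
        rw [mem_subgroupOf]
        by_contra hyc
        exact hz2 (h6 (y : G) g2 hy hyc ho2 (mem_cn.mp y.2))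
      have hcop : ((Subgroup.center G).relIndex Cu).Coprime n := coprime_of_Smc c.hcop hpi
      obtain ⟨x, hx⟩ := c.exN
      have h3 : n ∣ (Subgroup.center G).index := by
        rw [← hx]; exact index_dvd_of_le (center_le_cn x)
      rw [← relIndex_mul_index hZle] at h3
      exact hcop.symm.dvd_of_dvd_mul_left h3
  · right; right
    apply c.cs_eq_m_of_dvd
    rw [← h5 g1 (piNum_Sm_iff.mp ho1) hz1]
    exact index_dvd_of_le hC1

end Cfsg.Agent.Lib.Helper24.CopCls
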