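import Cfsg.Agent.Lib.Helper75.FrobConstruct

set_option autoImplicit false
set_option linter.unusedSectionVars false

/-! A group acting fixed-point-freely on an invariant section is a Frobenius complement. -/

namespace Cfsg.Agent.Lib.Helper24.FrobSection

universe u

open Subgroup

theorem exists_frob_of_section {G : Type u} [Group G] [Finite G] (H Y R0 : Subgroup G)
    (hR0Y : R0 ≤ Y) (hYn : Y ≤ normalizer (R0 : Set G)) (hHY : H ≤ normalizer (Y : Set G))
    (hHR0 : H ≤ normalizer (R0 : Set G)) (hne : ¬ Y ≤ R0) (hH : H ≠ ⊥)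
    (hfpf : ∀ h ∈ H, h ≠ 1 → ∀ y ∈ Y, y⁻¹ * (h * y * h⁻¹) ∈ R0 → y ∈ R0) :
    ∃ (F : Type u) (_ : Group F) (_ : Finite F) (C : Subgroup F),
      Cfsg.IsFrobeniusComplement C ∧ Nonempty (H ≃* C) := by
  have hn : (R0.subgroupOf Y).Normal := (normal_subgroupOf_iff_le_normalizer hR0Y).mpr hYn
  let cY : H →* MulAut Y := (Y.normalizerMonoidHom).comp (inclusion hHY)
  have hcY : ∀ (h : H) (y : Y), ((cY h y : Y) : G) = (h : G) * y * (h : G)⁻¹ := fun h y => rfl
  have hmap : ∀ h : H, (R0.subgroupOf Y).map (cY h).toMonoidHom = R0.subgroupOf Y := by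
    intro h
    ext y
    constructor
    · rintro ⟨x, hx, rfl⟩
      show ((cY h x : Y) : G) ∈ R0
      rw [hcY]
      exact ((mem_normalizer_iff.mp (hHR0 h.2)) _).mp hx
    · intro hy
      refine ⟨cY h⁻¹ y, ?_, ?_⟩
      · show ((cY h⁻¹ y : Y) : G) ∈ R0
        rw [hcY]
        exact ((mem_normalizer_iff.mp (hHR0 (h⁻¹).2)) _).mp hy
      · show cY h (cY h⁻¹ y) = y
        rw [← MulAut.mul_apply, ← map_mul, mul_inv_cancel, map_one, MulAut.one_apply]
  let φ : H →* MulAut (Y ⧸ R0.subgroupOf Y) :=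
    { toFun := fun h => QuotientGroup.congr _ _ (cY h) (hmap h)
      map_one' := by
        ext q
        obtain ⟨y, rfl⟩ := QuotientGroup.mk_surjective q
        show ((cY 1 y : Y) : Y ⧸ R0.subgroupOf Y) = _
        rw [map_one]; rfl
      map_mul' := by
        intro a b
        ext q
        obtain ⟨y, rfl⟩ := QuotientGroup.mk_surjective q
        show ((cY (a * b) y : Y) : Y ⧸ R0.subgroupOf Y) = ((cY a (cY b y) : Y) : Y ⧸ R0.subgroupOf Y)
        rw [map_mul]; rfl }
  have hφ : ∀ (h : H) (y : Y), φ h (y : Y ⧸ R0.subgroupOf Y) = ((cY h y : Y) : Y ⧸ R0.subgroupOf Y) :=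
    fun h y => rfl
  have hV : Nontrivial (Y ⧸ R0.subgroupOf Y) := by
    by_contra hs
    rw [not_nontrivial_iff_subsingleton] at hs
    apply hne
    intro y hy
    have : ((⟨y, hy⟩ : Y) : Y ⧸ R0.subgroupOf Y) = 1 := Subsingleton.elim _ _
    rw [QuotientGroup.eq_one_iff] at this
    exact this
  have hHnt : Nontrivial H := (nontrivial_iff_ne_bot H).mpr hH
  have hf : ∀ h : H, h ≠ 1 → ∀ v : Y ⧸ R0.subgroupOf Y, φ h v = v → v = 1 := by
    intro h hh v hv
    obtain ⟨y, rfl⟩ := QuotientGroup.mk_surjective v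
    rw [hφ] at hv
    rw [QuotientGroup.eq_one_iff]
    have h1 := (QuotientGroup.eq.mp hv.symm)
    apply hfpf h h.2 (fun e => hh (Subtype.ext e)) y y.2
    exact h1
  refine ⟨(Y ⧸ R0.subgroupOf Y) ⋊[φ] H, inferInstance,
    Finite.of_equiv _ SemidirectProduct.equivProd.symm,
    (SemidirectProduct.inr : H →* (Y ⧸ R0.subgroupOf Y) ⋊[φ] H).range,
    Cfsg.Agent.Lib.Helper75.isFrobeniusComplement_range_inr φ hf,
    ⟨MonoidHom.ofInjective SemidirectProduct.inr_injective⟩⟩

end Cfsg.Agent.Lib.Helper24.FrobSection
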