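import Cfsg.Agent.S0035

set_option autoImplicit false
set_option linter.style.haveILetI false
set_option linter.unusedSectionVars false

/-!
The Frobenius–Wielandt theorem: if `H0 ⊴ H ≤ G` and `H ∩ H^g ≤ H0` for all `g ∉ H`, then there is
a normal subgroup `N` of `G` with `G = N H` and `N ∩ H = H0`.
-/

namespace Cfsg.Agent.Lib.Helper24.FW

open Cfsg
open Cfsg.Agent.Lib.Helper19 Cfsg.Agent.Lib.Helper20 Cfsg.Agent.Lib.Helper32
open scoped ComplexConjugate Pointwise

section

variable {G : Type*} [Group G]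

/-- the elements none of whose conjugates lies in `H \ H0` -/
def kerSet (H : Subgroup G) (H0 : Subgroup H) : Set G :=
  {g : G | ∀ x : G, ∀ hx : x⁻¹ * g * x ∈ H, (⟨x⁻¹ * g * x, hx⟩ : H) ∈ H0}

variable [Fintype G]

theorem indFun_coe {H : Subgroup G} {H0 : Subgroup H}
    (hTI : ∀ g : G, g ∉ H → ∀ x : H, g⁻¹ * (x : G) * g ∈ H → x ∈ H0)
    {θ : H → ℂ} (hθ : IsClassFunction H θ) (h0 : ∀ x ∈ H0, θ x = 0) (h : H) :
    indFun H θ (h : G) = θ h := by
  classical
  haveI : Fintype H := Fintype.ofFinite H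
  rw [indFun_apply]
  have key : ∀ x : G, extendByZero H θ (x⁻¹ * (h : G) * x)
      = extendByZero H (fun _ => θ h) x := by
    intro x
    by_cases hx : x ∈ H
    · rw [extendByZero_of_mem H _ hx]
      have hm : x⁻¹ * (h : G) * x ∈ H := H.mul_mem (H.mul_mem (H.inv_mem hx) h.2) hx
      rw [extendByZero_of_mem H _ hm]
      have := hθ h (⟨x, hx⟩ : H)⁻¹
      rw [inv_inv] at this
      rw [← this]
      rfl
    · rw [extendByZero_of_not_mem H _ hx]
      by_cases hm : x⁻¹ * (h : G) * x ∈ H
      · rw [extendByZero_of_mem H _ hm]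
        apply h0
        apply hTI x⁻¹ (fun hx' => hx (by simpa using H.inv_mem hx'))
        have : x⁻¹⁻¹ * ((⟨x⁻¹ * (h : G) * x, hm⟩ : H) : G) * x⁻¹ = (h : G) := by
          show x⁻¹⁻¹ * (x⁻¹ * (h : G) * x) * x⁻¹ = (h : G)
          group
        rw [this]
        exact h.2
      · exact extendByZero_of_not_mem H _ hm
  rw [Finset.sum_congr rfl (fun x _ => key x), sum_extendByZero, Finset.sum_const,
    Finset.card_univ, nsmul_eq_mul, ← Nat.card_eq_fintype_card, ← mul_assoc,
    inv_mul_cancel₀ (Cfsg.Agent.Lib.Helper19.card_ne_zero_complex H), one_mul]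

theorem indFun_of_mem_kerSet {H : Subgroup G} {H0 : Subgroup H} {θ : H → ℂ}
    (h0 : ∀ x ∈ H0, θ x = 0) {g : G} (hg : g ∈ kerSet H H0) : indFun H θ g = 0 := by
  rw [indFun_apply]
  rw [Finset.sum_eq_zero, mul_zero]
  intro x _
  by_cases hm : x⁻¹ * g * x ∈ H
  · rw [extendByZero_of_mem H _ hm]
    exact h0 _ (hg x hm)
  · exact extendByZero_of_not_mem H _ hm

theorem exists_extension {H : Subgroup G} {H0 : Subgroup H}
    (hTI : ∀ g : G, g ∉ H → ∀ x : H, g⁻¹ * (x : G) * g ∈ H → x ∈ H0)
    {φ : H → ℂ} (hφ : IsIrrCharacter H φ) (hφ0 : ∀ x ∈ H0, φ x = φ 1) :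
    ∃ χ : G → ℂ, IsIrrCharacter G χ ∧ (∀ h : H, χ h = φ h) ∧
      ∀ g ∈ kerSet H H0, χ g = φ 1 := by
  classical
  haveI : Fintype H := Fintype.ofFinite H
  obtain ⟨d, hd0, hd⟩ := irr_apply_one hφ
  have hφc : IsCharacter H φ := isCharacter_of_isIrrCharacter hφ
  obtain ⟨c, hc⟩ := isCharacter_classInner_nat' hφc (isCharacter_one (G := H))
  set oneH : H → ℂ := fun _ => 1 with honeH
  set oneG : G → ℂ := fun _ => 1 with honeG
  set θ : H → ℂ := φ - (d : ℂ) • oneH with hθdef
  have hθ0 : ∀ x ∈ H0, θ x = 0 := by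
    intro x hx
    simp [hθdef, honeH, hφ0 x hx, hd]
  have hθ1 : θ 1 = 0 := hθ0 1 H0.one_mem
  have hθcl : IsClassFunction H θ :=
    isClassFunction_sub (isClassFunction_of_isCharacter hφc)
      (isClassFunction_smul _ (isClassFunction_of_isCharacter isCharacter_one))
  set χ : G → ℂ := indFun H θ + (d : ℂ) • oneG with hχdef
  have hres : (fun h : H => indFun H θ (h : G)) = θ := by
    funext h; exact indFun_coe hTI hθcl hθ0 h
  have hone1 : classInner oneH oneH = 1 := by
    have : IsIrrCharacter H oneH := by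
      apply isIrrCharacter_of_classInner_self isCharacter_one
      unfold classInner
      simp [Nat.card_eq_fintype_card]
    exact classInner_irr_self this
  have hone1G : classInner oneG oneG = 1 := by
    unfold classInner
    simp [honeG, Nat.card_eq_fintype_card]
  have hc' : classInner oneH φ = c := by
    rw [← classInner_conj_symm, hc]; simp
  have hθθ : classInner θ θ = 1 - 2 * d * c + d ^ 2 := by
    rw [hθdef, classInner_sub_left, classInner_sub_right, classInner_sub_right,
      classInner_smul_left, classInner_smul_right, classInner_smul_right, classInner_smul_left,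
      classInner_irr_self hφ, hc, hc', hone1]
    simp
    ring
  have hθ1' : classInner θ oneH = c - d := by
    rw [hθdef, classInner_sub_left, classInner_smul_left, hc, hone1]; ring
  have hI1 : classInner (indFun H θ) oneG = c - d := by
    rw [frobenius_reciprocity H θ oneG (isClassFunction_of_isCharacter isCharacter_one)]
    exact hθ1'
  have hI1' : classInner oneG (indFun H θ) = c - d := by
    rw [← classInner_conj_symm, hI1]; simp
  have hII : classInner (indFun H θ) (indFun H θ) = 1 - 2 * d * c + d ^ 2 := by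
    rw [frobenius_reciprocity H θ _ (indFun_isClassFunction H θ), hres, hθθ]
  have hnorm : classInner χ χ = 1 := by
    rw [hχdef, classInner_add_left, classInner_add_right, classInner_add_right,
      classInner_smul_left, classInner_smul_right, classInner_smul_right, classInner_smul_left,
      hII, hI1, hI1', hone1G]
    simp
    ring
  have hgen : IsGeneralizedCharacter G χ := by
    refine ⟨indFun H φ + (d : ℂ) • oneG, (d : ℂ) • indFun H oneH, ?_, ?_, ?_⟩
    · exact isCharacter_add (isCharacter_indFun H φ hφc)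
        (isCharacter_natCast_smul isCharacter_one d)
    · exact isCharacter_natCast_smul (isCharacter_indFun H oneH isCharacter_one) d
    · rw [hχdef, hθdef, sub_eq_add_neg, indFun_add, ← neg_smul, indFun_smul, neg_smul]
      abel
  have hχ1 : χ 1 = d := by
    simp [hχdef, honeG, indFun_apply_one, hθ1]
  have hirr : IsIrrCharacter G χ := by
    rcases genChar_norm_one hgen hnorm with h | h
    · exact h
    · exfalso
      obtain ⟨n, hn0, hn⟩ := irr_apply_one h
      rw [Pi.neg_apply, hχ1] at hn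
      have : ((d + n : ℕ) : ℂ) = 0 := by push_cast; rw [← hn]; ring
      have h2 : d + n = 0 := by exact_mod_cast this
      omega
  refine ⟨χ, hirr, ?_, ?_⟩
  · intro h
    have e1 : χ (h : G) = indFun H θ (h : G) + (d : ℂ) * 1 := rfl
    have e2 : θ h = φ h - (d : ℂ) * 1 := rfl
    rw [e1, indFun_coe hTI hθcl hθ0 h, e2]
    ring
  · intro g hg
    have e1 : χ g = indFun H θ g + (d : ℂ) * 1 := rfl
    rw [e1, indFun_of_mem_kerSet hθ0 hg, hd]
    ring

/-- `kerSet` has `|G : H| |H0|` elements. -/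
theorem card_kerSet {H : Subgroup G} {H0 : Subgroup H} [H0.Normal]
    (hTI : ∀ g : G, g ∉ H → ∀ x : H, g⁻¹ * (x : G) * g ∈ H → x ∈ H0) :
    Nat.card (kerSet H H0) = H.index * Nat.card H0 := by
  classical
  haveI : Fintype H := Fintype.ofFinite H
  set θ : H → ℂ := fun h => if h ∈ H0 then 0 else 1 with hθdef
  have hθ0 : ∀ x ∈ H0, θ x = 0 := by
    intro x hx
    simp [hθdef, hx]
  have hθcl : IsClassFunction H θ := by
    intro g h
    simp only [hθdef]
    have : h * g * h⁻¹ ∈ H0 ↔ g ∈ H0 := by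
      constructor
      · intro e
        have h2 := (inferInstance : H0.Normal).conj_mem _ e h⁻¹
        have : h⁻¹ * (h * g * h⁻¹) * h⁻¹⁻¹ = g := by group
        rwa [this] at h2
      · intro e
        exact (inferInstance : H0.Normal).conj_mem _ e h
    simp only [this]
  have hval : ∀ g : G, indFun H θ g = if g ∈ kerSet H H0 then 0 else 1 := by
    intro g
    split_ifs with hg
    · exact indFun_of_mem_kerSet hθ0 hg
    · have hg' : ∃ x : G, ∃ hx : x⁻¹ * g * x ∈ H, (⟨x⁻¹ * g * x, hx⟩ : H) ∉ H0 := by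
        unfold kerSet at hg
        simp only [Set.mem_ofPred_eq, not_forall] at hg
        exact hg
      obtain ⟨x, hx, hx0⟩ := hg'
      have e : g = x * (x⁻¹ * g * x) * x⁻¹ := by group
      rw [e, indFun_isClassFunction H θ]
      have := indFun_coe hTI hθcl hθ0 ⟨x⁻¹ * g * x, hx⟩
      rw [this]
      simp only [hθdef]
      rw [if_neg hx0]
  have h1 := frobenius_reciprocity H θ (fun _ => 1)
    (isClassFunction_of_isCharacter (isCharacter_one (G := G)))
  unfold classInner at h1
  simp only [map_one, mul_one, hval] at h1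
  have hs1 : ∑ g : G, (if g ∈ kerSet H H0 then (0 : ℂ) else 1)
      = (Nat.card G : ℂ) - (Nat.card (kerSet H H0) : ℂ) := by
    have : ∀ g : G, (if g ∈ kerSet H H0 then (0 : ℂ) else 1)
        = 1 - (if g ∈ kerSet H H0 then (1 : ℂ) else 0) := by
      intro g; split_ifs <;> simp
    rw [Finset.sum_congr rfl (fun g _ => this g), Finset.sum_sub_distrib, Finset.sum_const,
      Finset.card_univ, nsmul_eq_mul, mul_one, Finset.sum_ite, Finset.sum_const_zero, add_zero,
      Finset.sum_const, nsmul_eq_mul, mul_one, Nat.card_eq_fintype_card]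
    congr 2
    rw [Nat.card_eq_fintype_card, Fintype.card_subtype]
  have hs2 : ∑ h : H, θ h = (Nat.card H : ℂ) - (Nat.card H0 : ℂ) := by
    have : ∀ h : H, θ h = 1 - (if h ∈ H0 then (1 : ℂ) else 0) := by
      intro h; simp only [hθdef]; split_ifs <;> simp
    rw [Finset.sum_congr rfl (fun g _ => this g), Finset.sum_sub_distrib, Finset.sum_const,
      Finset.card_univ, nsmul_eq_mul, mul_one, Finset.sum_ite, Finset.sum_const_zero, add_zero,
      Finset.sum_const, nsmul_eq_mul, mul_one, Nat.card_eq_fintype_card]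
    congr 2
    rw [Nat.card_eq_fintype_card, Fintype.card_subtype]
  rw [hs1, hs2] at h1
  have hG : (Nat.card G : ℂ) ≠ 0 := by exact_mod_cast Nat.card_pos.ne'
  have hH : (Nat.card H : ℂ) ≠ 0 := by exact_mod_cast Nat.card_pos.ne'
  have hidx : (Nat.card H : ℂ) * (H.index : ℂ) = (Nat.card G : ℂ) := by
    exact_mod_cast H.card_mul_index
  have h2 : (Nat.card (kerSet H H0) : ℂ) = (H.index : ℂ) * (Nat.card H0 : ℂ) := by
    field_simp at h1
    have h3 : (Nat.card H : ℂ) * (Nat.card (kerSet H H0) : ℂ)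
        = (Nat.card H : ℂ) * ((H.index : ℂ) * (Nat.card H0 : ℂ)) := by
      rw [← mul_assoc, hidx]; linear_combination -h1
    exact mul_left_cancel₀ hH h3
  exact_mod_cast h2

end

/-- **Frobenius–Wielandt.** -/
theorem frobenius_wielandt {G : Type*} [Group G] [Finite G] (H : Subgroup G) (H0 : Subgroup H)
    [H0.Normal] (hTI : ∀ g : G, g ∉ H → ∀ x : H, g⁻¹ * (x : G) * g ∈ H → x ∈ H0) :
    ∃ N : Subgroup G, N.Normal ∧ (∀ x : H, (x : G) ∈ N ↔ x ∈ H0) ∧ N ⊔ H = ⊤ ∧
      kerSet H H0 ⊆ (N : Set G) := by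
  classical
  haveI : Fintype G := Fintype.ofFinite G
  haveI : Fintype H := Fintype.ofFinite H
  haveI := finite_irrCharacter (G := H ⧸ H0)
  haveI : Fintype (IrrCharacter (H ⧸ H0)) := Fintype.ofFinite _
  have hinf : ∀ ψ : IrrCharacter (H ⧸ H0), ∀ x ∈ H0,
      (ψ : H ⧸ H0 → ℂ) ((x : H) : H ⧸ H0) = (ψ : H ⧸ H0 → ℂ) ((1 : H) : H ⧸ H0) := by
    intro ψ x hx
    rw [(QuotientGroup.eq_one_iff x).2 hx]; rfl
  choose χ hχirr hχres hχker using fun ψ : IrrCharacter (H ⧸ H0) =>
    exists_extension hTI (Cfsg.Agent.Lib.Helper82.isIrr_inflate ψ.2) (hinf ψ)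
  set N : Subgroup G :=
    ⨅ ψ : IrrCharacter (H ⧸ H0), Cfsg.Agent.Lib.Helper82.charKer (χ ψ)
      (isCharacter_of_isIrrCharacter (hχirr ψ)) with hN
  have hNn : N.Normal := Subgroup.normal_iInf_normal (fun φ => inferInstance)
  have hmem : ∀ x : G, x ∈ N ↔ ∀ ψ : IrrCharacter (H ⧸ H0), χ ψ x = χ ψ 1 := by
    intro x
    rw [hN, Subgroup.mem_iInf]
    rfl
  have hχ1 : ∀ ψ : IrrCharacter (H ⧸ H0), χ ψ 1 = (ψ : H ⧸ H0 → ℂ) 1 := fun ψ => hχres ψ 1
  have hNH : ∀ h : H, (h : G) ∈ N ↔ h ∈ H0 := by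
    intro h
    constructor
    · intro hh
      by_contra h1
      have h1' : ((h : H) : H ⧸ H0) ≠ 1 := fun e => h1 ((QuotientGroup.eq_one_iff h).1 e)
      have e1 := Cfsg.Agent.Lib.Helper83.delta_expand (G := H ⧸ H0) (h : H ⧸ H0)
      have e2 := Cfsg.Agent.Lib.Helper83.delta_expand (G := H ⧸ H0) 1
      rw [if_neg h1'] at e1
      rw [if_pos rfl] at e2
      have : ∀ ψ : IrrCharacter (H ⧸ H0), (ψ : H ⧸ H0 → ℂ) (h : H ⧸ H0) = (ψ : H ⧸ H0 → ℂ) 1 := by
        intro ψ
        rw [← hχres ψ h, (hmem _).1 hh ψ, hχ1]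
      simp only [this] at e1
      rw [e1] at e2
      have hH : (Nat.card (H ⧸ H0) : ℂ) ≠ 0 := by exact_mod_cast Nat.card_pos.ne'
      exact hH e2.symm
    · intro hh
      rw [hmem]
      intro ψ
      rw [hχres ψ h, hχ1, hinf ψ h hh]
      rfl
  have hsub : kerSet H H0 ⊆ (N : Set G) := by
    intro x hx
    exact (hmem x).2 (fun ψ => by rw [hχker ψ x hx, hχ1]; rfl)
  refine ⟨N, hNn, hNH, ?_, hsub⟩
  -- the counting
  have hcardN : H.index * Nat.card H0 ≤ Nat.card N := by
    rw [← card_kerSet hTI]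
    exact Nat.card_mono (Set.toFinite _) hsub
  let f : H →* G ⧸ N := (QuotientGroup.mk' N).comp H.subtype
  have hker : f.ker = H0 := by
    ext x
    rw [MonoidHom.mem_ker]
    show ((x : G) : G ⧸ N) = 1 ↔ _
    rw [QuotientGroup.eq_one_iff, hNH]
  have hrange : Nat.card f.range = H0.index := by
    rw [← Subgroup.index_ker, hker]
  have h1 : N.index * Nat.card N = Nat.card G := by
    rw [mul_comm]; exact N.card_mul_index
  have h2 : Nat.card H * H.index = Nat.card G := H.card_mul_index
  have h3 : Nat.card H0 * H0.index = Nat.card H := H0.card_mul_index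
  have hpos : 0 < H.index * Nat.card H0 :=
    Nat.mul_pos (Nat.pos_of_ne_zero Subgroup.index_ne_zero_of_finite) Nat.card_pos
  have h4 : N.index ≤ H0.index := by
    have h5 : N.index * (H.index * Nat.card H0) ≤ H0.index * (H.index * Nat.card H0) := by
      calc N.index * (H.index * Nat.card H0) ≤ N.index * Nat.card N :=
            Nat.mul_le_mul_left _ hcardN
        _ = Nat.card G := h1
        _ = H0.index * (H.index * Nat.card H0) := by
            rw [← h2, ← h3]; ring
    exact Nat.le_of_mul_le_mul_right h5 hpos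
  have htop : f.range = ⊤ := by
    apply Subgroup.eq_top_of_le_card
    rw [hrange]
    exact h4
  rw [eq_top_iff]
  intro g _
  have hg : (g : G ⧸ N) ∈ f.range := by rw [htop]; trivial
  obtain ⟨h, hh⟩ := hg
  have hh' : ((h : G) : G ⧸ N) = (g : G ⧸ N) := hh
  rw [QuotientGroup.eq] at hh'
  have : g = (h : G) * ((h : G)⁻¹ * g) := by group
  rw [this]
  exact (N ⊔ H).mul_mem (Subgroup.mem_sup_right h.2) (Subgroup.mem_sup_left hh')

end Cfsg.Agent.Lib.Helper24.FW
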