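import Cfsg.Agent.S0035

set_option autoImplicit false
set_option linter.style.haveILetI false
set_option linter.unusedSectionVars false

/-! Conjugacy of subgroups of order `|H|` for a TI-subgroup `H` (counting argument). -/

namespace Cfsg.Agent.Lib.Helper24.TIConj

open Subgroup Cfsg
open scoped Pointwise

theorem exists_conj_eq {G : Type*} [Group G] [Finite G] (H : Subgroup G)
    (hT : ∀ g : G, ∀ y ∈ H, y ≠ 1 → g * y * g⁻¹ ∈ H → g ∈ normalizer (H : Set G))
    (hP : ∀ x ∈ normalizer (H : Set G), x ^ Nat.card H = 1 → x ∈ H)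
    (hC : ∀ b : G, b ≠ 1 → b ^ Nat.card H = 1 → ∃ x : G, x⁻¹ * b * x ∈ H)
    (B : Subgroup G) (hB : Nat.card B = Nat.card H) :
    ∃ g : G, MulAut.conj g • H = B := by
  classical
  haveI : Fintype B := Fintype.ofFinite B
  have hmem : ∀ g x : G, x ∈ MulAut.conj g • H ↔ g⁻¹ * x * g ∈ H :=
    fun g x => Cfsg.Agent.S0035.mem_conj_smul_iff H g x
  have hpowB : ∀ b : B, (b : G) ^ Nat.card H = 1 := by
    intro b
    rw [← hB]
    have := pow_card_eq_one' (G := B) (x := b)
    exact_mod_cast congrArg Subtype.val this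
  -- the traces of the conjugates of `H` on `B`
  let S : G → Subgroup B := fun g => (MulAut.conj g • H).subgroupOf B
  have hSmem : ∀ (g : G) (b : B), b ∈ S g ↔ g⁻¹ * (b : G) * g ∈ H := by
    intro g b
    show (b : G) ∈ MulAut.conj g • H ↔ _
    exact hmem g b
  have hTI : ∀ g : G, ∀ b : B, b ∉ S g → S g ⊓ (MulAut.conj b • S g) = ⊥ := by
    intro g b hb
    rw [eq_bot_iff_forall]
    rintro y ⟨hy1, hy2⟩
    by_contra hy
    apply hb
    have hy1' : y ∈ S g := hy1
    have hy2' : y ∈ MulAut.conj b • S g := hy2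
    rw [hSmem] at hy1'
    rw [Cfsg.Agent.S0035.mem_conj_smul_iff, hSmem] at hy2'
    have hne : g⁻¹ * (y : G) * g ≠ 1 := by
      intro e
      apply hy
      apply Subtype.ext
      have : (y : G) = g * (g⁻¹ * (y : G) * g) * g⁻¹ := by group
      rw [this, e]; simp
    have h1 : (g⁻¹ * (b : G)⁻¹ * g) * (g⁻¹ * (y : G) * g) * (g⁻¹ * (b : G)⁻¹ * g)⁻¹ ∈ H := by
      have : (g⁻¹ * (b : G)⁻¹ * g) * (g⁻¹ * (y : G) * g) * (g⁻¹ * (b : G)⁻¹ * g)⁻¹
          = g⁻¹ * ((b⁻¹ * y * b : B) : G) * g := by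
        push_cast; group
      rw [this]; exact hy2'
    have h2 := hT _ _ hy1' hne h1
    have h3 : (g⁻¹ * (b : G)⁻¹ * g) ^ Nat.card H = 1 := by
      have : g⁻¹ * (b : G)⁻¹ * g = g⁻¹ * (b : G)⁻¹ * g⁻¹⁻¹ := by rw [inv_inv]
      rw [this, conj_pow, inv_pow, hpowB]; simp
    have h4 := H.inv_mem (hP _ h2 h3)
    rw [hSmem]
    have : (g⁻¹ * (b : G)⁻¹ * g)⁻¹ = g⁻¹ * (b : G) * g := by group
    rwa [this] at h4
  have hker : ∀ g : G, Nat.card (frobeniusKernel (S g)) = (S g).index :=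
    fun g => Cfsg.Agent.S0035.card_kernel (hTI g)
  by_cases hB1 : B = ⊥
  · refine ⟨1, ?_⟩
    rw [hB1]
    have : Nat.card H = 1 := by rw [← hB, hB1]; simp
    rw [(card_eq_one (H := H)).mp this]
    simp
  obtain ⟨b0, hb0, hb01⟩ : ∃ b0 ∈ B, b0 ≠ 1 := by
    by_contra hcon
    push Not at hcon
    exact hB1 ((eq_bot_iff_forall B).mpr hcon)
  obtain ⟨g, hg⟩ := hC b0 hb01 (hpowB ⟨b0, hb0⟩)
  have hS2 : ∀ (g' : G) (x : B), x ≠ 1 → x ∈ S g' → 2 * (S g').index ≤ Nat.card B := by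
    intro g' x hx1 hx
    have h1 := (S g').card_mul_index
    have h2 : 2 ≤ Nat.card (S g') := by
      have hnt : Nontrivial (S g') := ⟨⟨⟨x, hx⟩, 1, fun e => hx1 (congrArg Subtype.val e)⟩⟩
      exact Finite.one_lt_card
    calc 2 * (S g').index ≤ Nat.card (S g') * (S g').index := Nat.mul_le_mul_right _ h2
      _ = Nat.card B := h1
  by_cases htop : S g = ⊤
  · refine ⟨g, ?_⟩
    symm
    apply Subgroup.eq_of_le_of_card_ge
    · intro b hb
      have : (⟨b, hb⟩ : B) ∈ S g := by rw [htop]; trivial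
      exact this
    · rw [hB]
      exact (Nat.card_congr (Subgroup.equivSMul (MulAut.conj g) H).toEquiv).symm.le
  exfalso
  have hb0S : (⟨b0, hb0⟩ : B) ∈ S g := (hSmem g _).2 hg
  have hb0ne : (⟨b0, hb0⟩ : B) ≠ 1 := fun e => hb01 (congrArg Subtype.val e)
  have hidx2 : 2 ≤ (S g).index := by
    have h0 : (S g).index ≠ 0 := index_ne_zero_of_finite
    have h1 : (S g).index ≠ 1 := fun e => htop (index_eq_one.mp e)
    omega
  -- a nontrivial element of the kernel
  have hx : ∃ x : B, x ∈ frobeniusKernel (S g) ∧ x ≠ 1 := by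
    by_contra hcon
    push Not at hcon
    have : Nat.card (frobeniusKernel (S g)) ≤ 1 := by
      rw [Finite.card_le_one_iff_subsingleton]
      constructor
      intro a b
      apply Subtype.ext
      rw [hcon a a.2, hcon b b.2]
    rw [hker] at this
    omega
  obtain ⟨x, hxk, hx1⟩ := hx
  obtain ⟨g', hg'⟩ := hC x (fun e => hx1 (Subtype.ext e)) (hpowB x)
  have hxS' : x ∈ S g' := (hSmem g' x).2 hg'
  have hcover : frobeniusKernel (S g) ∪ frobeniusKernel (S g') = Set.univ := by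
    rw [Set.eq_univ_iff_forall]
    intro y
    by_contra hy
    rw [Set.mem_union, not_or] at hy
    obtain ⟨hy1, hy2⟩ := hy
    unfold frobeniusKernel at hy1 hy2
    simp only [Set.mem_ofPred_eq, not_or, not_forall, not_not] at hy1 hy2
    obtain ⟨hyne, b, hb⟩ := hy1
    obtain ⟨-, b', hb'⟩ := hy2
    rw [Cfsg.Agent.S0035.mem_conj_smul_iff, hSmem] at hb hb'
    -- u = (b g)⁻¹ y (b g), w = (b' g')⁻¹ y (b' g')
    set t : G := ((b' : G) * g')⁻¹ * ((b : G) * g) with ht
    have hu1 : g⁻¹ * ((b⁻¹ * y * b : B) : G) * g ≠ 1 := by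
      intro e
      apply hyne
      apply Subtype.ext
      have : (y : G) = ((b : G) * g) * (g⁻¹ * ((b⁻¹ * y * b : B) : G) * g) * ((b : G) * g)⁻¹ := by
        push_cast; group
      rw [this, e]; simp
    have htw : t * (g⁻¹ * ((b⁻¹ * y * b : B) : G) * g) * t⁻¹ ∈ H := by
      have : t * (g⁻¹ * ((b⁻¹ * y * b : B) : G) * g) * t⁻¹ = g'⁻¹ * ((b'⁻¹ * y * b' : B) : G) * g' := by
        rw [ht]; push_cast; group
      rw [this]; exact hb'
    have htN := hT t _ hb hu1 htw
    -- then `x` lies in a `B`-conjugate of `S g`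
    rcases hxk with hxk | hxk
    · exact hx1 hxk
    · apply hxk (b'⁻¹ * b)
      rw [Cfsg.Agent.S0035.mem_conj_smul_iff, hSmem]
      have h5 := ((mem_normalizer_iff.mp (inv_mem htN)) _).mp hg'
      have : t⁻¹ * (g'⁻¹ * (x : G) * g') * t⁻¹⁻¹
          = g⁻¹ * (((b'⁻¹ * b)⁻¹ * x * (b'⁻¹ * b) : B) : G) * g := by
        rw [ht]; push_cast; group
      rwa [this] at h5
  have h1 := Set.ncard_union_add_ncard_inter (frobeniusKernel (S g)) (frobeniusKernel (S g'))
  rw [hcover, Set.ncard_univ] at h1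
  have h2 : 1 ≤ (frobeniusKernel (S g) ∩ frobeniusKernel (S g')).ncard := by
    have : 0 < (frobeniusKernel (S g) ∩ frobeniusKernel (S g')).ncard :=
      (Set.ncard_pos (Set.toFinite _)).mpr ⟨1, Or.inl rfl, Or.inl rfl⟩
    exact this
  have h3 : (frobeniusKernel (S g)).ncard = (S g).index := by
    rw [← hker g]; rfl
  have h4 : (frobeniusKernel (S g')).ncard = (S g').index := by
    rw [← hker g']; rfl
  have h5 := hS2 g _ hb0ne hb0S
  have h6 := hS2 g' x hx1 hxS'
  omega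

end Cfsg.Agent.Lib.Helper24.TIConj
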